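import Mathlib
import Cfsg.Agent.Lib.Helper30.DSims.Defs
import Cfsg.Agent.Lib.Helper48.Cores

/-!
# DSIMS (S4385, S2772), package P5 (helper62 for helper30)

`DihT L Q M x n` with `|Q| = 2` and a subgroup `P ⊇ Q` of order 4 and exponent 2:
`L ⧸ O(L)` is a Klein four group.

Proof.  `Q` is central; `Y = ⟨x²⟩` is a normal subgroup of odd order, so `Y ≤ O(L)`;
`M ⊆ Q Y`, `P ⊄ M`, hence `L = O(L) P`; `P ∩ O(L) = 1`; so `P → L ⧸ O(L)` is bijective.
-/

set_option autoImplicit false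

namespace Cfsg.Agent.Lib.Helper62.DSims

universe u

open Cfsg.Agent.Lib.Helper30.DSims

theorem ne_one_eq_of_card_two {T : Type u} [Group T] (hT2 : Nat.card T = 2) {s t : T}
    (hs : s ≠ 1) (ht : t ≠ 1) : s = t := by
  obtain ⟨a, b, hab, huniv⟩ := Nat.card_eq_two_iff.mp hT2
  have h : ∀ z : T, z = a ∨ z = b := by
    intro z
    have hz : z ∈ ({a, b} : Set T) := by rw [huniv]; exact Set.mem_univ z
    simpa using hz
  rcases h 1 with h1 | h1 <;> rcases h s with h2 | h2 <;> rcases h t with h3 | h3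
  · exact absurd (h2.trans h1.symm) hs
  · exact absurd (h2.trans h1.symm) hs
  · exact absurd (h3.trans h1.symm) ht
  · exact h2.trans h3.symm
  · exact h2.trans h3.symm
  · exact absurd (h3.trans h1.symm) ht
  · exact absurd (h2.trans h1.symm) hs
  · exact absurd (h2.trans h1.symm) hs

theorem exponent_two_of {T : Type*} [Group T] (h : ∀ t : T, t * t = 1) (hne : ∃ t : T, t ≠ 1) :
    Monoid.exponent T = 2 := by
  have hdvd : Monoid.exponent T ∣ 2 :=
    Monoid.exponent_dvd_of_forall_pow_eq_one (fun t => by rw [pow_two]; exact h t)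
  have h1 : Monoid.exponent T ≠ 1 := by
    intro h1
    obtain ⟨t, ht⟩ := hne
    have h2 := Monoid.pow_exponent_eq_one t
    rw [h1, pow_one] at h2
    exact ht h2
  rcases (Nat.dvd_prime Nat.prime_two).mp hdvd with h2 | h2
  · exact absurd h2 h1
  · exact h2

instance kleinFour_prod : IsKleinFour (Multiplicative (ZMod 2) × Multiplicative (ZMod 2)) where
  card_four := by
    rw [Nat.card_prod]
    have h2 : Nat.card (Multiplicative (ZMod 2)) = 2 := by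
      rw [Nat.card_eq_fintype_card]
      rfl
    rw [h2]
  exponent_two := exponent_two_of (by decide) (by decide)

/-- **Package P5.** -/
theorem lemIdentV4 : LemIdentV4.{u} := by
  intro L _ _ Q M x n hD hQ2 P hQP hP4 hPexp
  obtain ⟨hQn, hQM, hMidx, hn, hxM, hx1, hxn, hgen, hinv⟩ := hD
  -- `Q` has exponent 2 and is central
  have hQexp : ∀ q ∈ Q, q * q = 1 := by
    intro q hq
    have h1 : (⟨q, hq⟩ : Q) ^ Nat.card Q = 1 := pow_card_eq_one'
    rw [hQ2, pow_two] at h1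
    exact congrArg Subtype.val h1
  have hQcen : ∀ q ∈ Q, ∀ g : L, g * q = q * g := by
    intro q hq g
    by_cases hq1 : q = 1
    · rw [hq1, mul_one, one_mul]
    · have hconj : g * q * g⁻¹ ∈ Q := hQn.conj_mem q hq g
      have hne : g * q * g⁻¹ ≠ 1 := by
        intro h
        apply hq1
        have h2 : q = g⁻¹ * (g * q * g⁻¹) * g := by group
        rw [h2, h, mul_one, inv_mul_cancel]
      have heq : (⟨g * q * g⁻¹, hconj⟩ : Q) = ⟨q, hq⟩ :=
        ne_one_eq_of_card_two hQ2 (fun h => hne (congrArg Subtype.val h))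
          (fun h => hq1 (congrArg Subtype.val h))
      have h3 : g * q * g⁻¹ = q := congrArg Subtype.val heq
      calc g * q = g * q * g⁻¹ * g := by group
        _ = q * g := by rw [h3]
  -- `c = x ^ n ∈ Q`, `y₀ = c⁻¹ x ∈ Y = ⟨x²⟩`
  obtain ⟨j, hj⟩ := hn
  obtain ⟨c, hcdef⟩ : ∃ c : L, c = x ^ n := ⟨_, rfl⟩
  have hcQ : c ∈ Q := by rw [hcdef]; exact hxn
  obtain ⟨Y, hYdef⟩ : ∃ Y : Subgroup L, Y = Subgroup.zpowers (x ^ 2) := ⟨_, rfl⟩
  have hx2Y : x ^ 2 ∈ Y := by rw [hYdef]; exact Subgroup.mem_zpowers _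
  have hy₀ : c⁻¹ * x ∈ Y := by
    have h1 : c⁻¹ * x = ((x ^ 2) ^ j)⁻¹ := by
      rw [hcdef, hj, ← pow_mul, pow_succ]
      group
    rw [h1]
    exact Y.inv_mem (Y.pow_mem hx2Y j)
  -- `(x²)^n = 1`, so `|Y|` is odd
  have hx2n : (x ^ 2) ^ n = 1 := by
    have h1 : (x ^ 2) ^ n = c * c := by
      rw [hcdef, ← pow_mul, ← pow_add]
      congr 1
      ring
    rw [h1]
    exact hQexp c hcQ
  have hYodd : (Nat.card Y).Coprime 2 := by
    rw [hYdef, Nat.card_zpowers]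
    have h1 : orderOf (x ^ 2) ∣ n := orderOf_dvd_of_pow_eq_one hx2n
    have h2 : Nat.Coprime n 2 := by
      rw [hj]
      rw [Nat.coprime_comm, Nat.Prime.coprime_iff_not_dvd Nat.prime_two]
      omega
    exact Nat.Coprime.coprime_dvd_left h1 h2
  -- elements of `M` commute with `x`
  have hMx : ∀ m ∈ M, m * x = x * m := by
    intro m hm
    obtain ⟨k, hk⟩ := hgen m hm
    have h1 : m = (m * x ^ k) * (x ^ k)⁻¹ := by group
    have h2 := hQcen _ hk x
    rw [h1]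
    calc m * x ^ k * (x ^ k)⁻¹ * x = m * x ^ k * (x * (x ^ k)⁻¹) := by group
      _ = (m * x ^ k * x) * (x ^ k)⁻¹ := by group
      _ = (x * (m * x ^ k)) * (x ^ k)⁻¹ := by rw [h2]
      _ = x * (m * x ^ k * (x ^ k)⁻¹) := by group
  -- `Y` is normal
  have hconjx2 : ∀ g : L, g * x ^ 2 * g⁻¹ ∈ Y := by
    intro g
    by_cases hg : g ∈ M
    · have h1 : g * x ^ 2 * g⁻¹ = x ^ 2 := by
        have h2 := hMx g hg
        rw [pow_two]
        calc g * (x * x) * g⁻¹ = (g * x) * x * g⁻¹ := by group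
          _ = (x * g) * x * g⁻¹ := by rw [h2]
          _ = x * (g * x) * g⁻¹ := by group
          _ = x * (x * g) * g⁻¹ := by rw [h2]
          _ = x * x := by group
      rw [h1]
      exact hx2Y
    · have hq := hinv g hg
      have hqc := hQcen _ hq
      have hqq := hQexp _ hq
      have h1 : g * x ^ 2 * g⁻¹ = (x ^ 2)⁻¹ := by
        have e1 : g * x * g⁻¹ = (g * x * g⁻¹ * x) * x⁻¹ := by group
        rw [pow_two]
        calc g * (x * x) * g⁻¹ = (g * x * g⁻¹) * (g * x * g⁻¹) := by group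
          _ = ((g * x * g⁻¹ * x) * x⁻¹) * ((g * x * g⁻¹ * x) * x⁻¹) := by rw [← e1]
          _ = (g * x * g⁻¹ * x) * (x⁻¹ * (g * x * g⁻¹ * x)) * x⁻¹ := by group
          _ = (g * x * g⁻¹ * x) * ((g * x * g⁻¹ * x) * x⁻¹) * x⁻¹ := by rw [hqc x⁻¹]
          _ = ((g * x * g⁻¹ * x) * (g * x * g⁻¹ * x)) * (x⁻¹ * x⁻¹) := by group
          _ = (x * x)⁻¹ := by rw [hqq]; group
      rw [h1]
      exact Y.inv_mem hx2Y
  have hYn : Y.Normal := by
    constructor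
    intro y hy g
    rw [hYdef, Subgroup.mem_zpowers_iff] at hy
    obtain ⟨k, rfl⟩ := hy
    have h1 : g * (x ^ 2) ^ k * g⁻¹ = (g * x ^ 2 * g⁻¹) ^ k := (conj_zpow).symm
    rw [h1]
    exact Y.zpow_mem (hconjx2 g) k
  have hYO : Y ≤ Cfsg.pPrimeCore 2 L := Cfsg.Agent.Lib.Helper48.le_pPrimeCore' hYn hYodd
  have hOodd : (Nat.card (Cfsg.pPrimeCore 2 L)).Coprime 2 :=
    Cfsg.Agent.Lib.Helper48.pPrimeCore_coprime' 2 L
  -- every element of `M` is `q * y` with `q ∈ Q`, `y ∈ Y`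
  have hMQY : ∀ m ∈ M, ∃ q ∈ Q, q⁻¹ * m ∈ Y := by
    intro m hm
    obtain ⟨k, hk⟩ := hgen m hm
    have hxcy : x = c * (c⁻¹ * x) := by group
    have hcomm : Commute c (c⁻¹ * x) := (hQcen c hcQ (c⁻¹ * x)).symm
    have hxk : x ^ k = c ^ k * (c⁻¹ * x) ^ k := by
      conv_lhs => rw [hxcy]
      exact hcomm.mul_pow k
    have hck : c ^ k ∈ Q := Q.pow_mem hcQ k
    refine ⟨m * x ^ k * (c ^ k)⁻¹, Q.mul_mem hk (Q.inv_mem hck), ?_⟩
    have h1 : (m * x ^ k * (c ^ k)⁻¹)⁻¹ * m = ((c⁻¹ * x) ^ k)⁻¹ := by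
      have h2 : c ^ k * (x ^ k)⁻¹ = ((c⁻¹ * x) ^ k)⁻¹ := by
        rw [hxk]
        have h3 := hQcen _ hck ((c⁻¹ * x) ^ k)
        calc c ^ k * (c ^ k * (c⁻¹ * x) ^ k)⁻¹
            = c ^ k * ((c⁻¹ * x) ^ k)⁻¹ * (c ^ k)⁻¹ := by group
          _ = ((c⁻¹ * x) ^ k)⁻¹ * ((c⁻¹ * x) ^ k * c ^ k) * ((c⁻¹ * x) ^ k)⁻¹ * (c ^ k)⁻¹ := by
              group
          _ = ((c⁻¹ * x) ^ k)⁻¹ * (c ^ k * (c⁻¹ * x) ^ k) * ((c⁻¹ * x) ^ k)⁻¹ * (c ^ k)⁻¹ := by
              rw [h3]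
          _ = ((c⁻¹ * x) ^ k)⁻¹ := by group
      calc (m * x ^ k * (c ^ k)⁻¹)⁻¹ * m = c ^ k * (x ^ k)⁻¹ := by group
        _ = ((c⁻¹ * x) ^ k)⁻¹ := h2
    rw [h1]
    exact Y.inv_mem (Y.pow_mem hy₀ k)
  -- an element of `P` of odd order is trivial
  have hPodd : ∀ p ∈ P, ∀ N : Subgroup L, (Nat.card N).Coprime 2 → p ∈ N → p = 1 := by
    intro p hp N hN hpN
    have h1 : (⟨p, hpN⟩ : N) ^ Nat.card N = 1 := pow_card_eq_one'
    have h2 : p ^ Nat.card N = 1 := congrArg Subtype.val h1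
    have h3 : p ^ 2 = 1 := by rw [pow_two]; exact hPexp p hp
    have h4 : orderOf p ∣ Nat.gcd (Nat.card N) 2 :=
      Nat.dvd_gcd (orderOf_dvd_of_pow_eq_one h2) (orderOf_dvd_of_pow_eq_one h3)
    rw [hN] at h4
    exact orderOf_eq_one_iff.mp (Nat.dvd_one.mp h4)
  -- `P ⊄ M`
  have hPM : ∃ p₀ ∈ P, p₀ ∉ M := by
    by_contra hcon
    push Not at hcon
    have hPQ : P ≤ Q := by
      intro p hp
      obtain ⟨q, hq, hy⟩ := hMQY p (hcon p hp)
      have h1 : q⁻¹ * p = 1 :=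
        hPodd _ (P.mul_mem (P.inv_mem (hQP hq)) hp) Y hYodd hy
      have h2 : p = q := by
        calc p = q * (q⁻¹ * p) := by group
          _ = q := by rw [h1, mul_one]
      rw [h2]
      exact hq
    have h3 := Subgroup.card_le_of_le hPQ
    omega
  obtain ⟨p₀, hp₀P, hp₀M⟩ := hPM
  -- the map `P → L ⧸ O(L)`
  obtain ⟨f, hfdef⟩ : ∃ f : ↥P →* L ⧸ Cfsg.pPrimeCore 2 L,
      f = (QuotientGroup.mk' (Cfsg.pPrimeCore 2 L)).comp P.subtype := ⟨_, rfl⟩
  have hfapp : ∀ p : ↥P, f p = QuotientGroup.mk' (Cfsg.pPrimeCore 2 L) (p : L) := by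
    intro p
    rw [hfdef]
    rfl
  have hmkY : ∀ y ∈ Y, QuotientGroup.mk' (Cfsg.pPrimeCore 2 L) y = 1 := by
    intro y hy
    rw [QuotientGroup.mk'_apply, QuotientGroup.eq_one_iff]
    exact hYO hy
  have hinj : Function.Injective f := by
    rw [injective_iff_map_eq_one]
    intro p hp
    rw [hfapp, QuotientGroup.mk'_apply, QuotientGroup.eq_one_iff] at hp
    exact Subtype.ext (hPodd _ p.2 _ hOodd hp)
  have hsurjM : ∀ m ∈ M, ∃ q ∈ Q, QuotientGroup.mk' (Cfsg.pPrimeCore 2 L) m =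
      QuotientGroup.mk' (Cfsg.pPrimeCore 2 L) q := by
    intro m hm
    obtain ⟨q, hq, hy⟩ := hMQY m hm
    refine ⟨q, hq, ?_⟩
    have h1 : m = q * (q⁻¹ * m) := by group
    rw [h1, map_mul, hmkY _ hy, mul_one]
  have hsurj : Function.Surjective f := by
    intro z
    obtain ⟨g, rfl⟩ := QuotientGroup.mk'_surjective (Cfsg.pPrimeCore 2 L) z
    by_cases hg : g ∈ M
    · obtain ⟨q, hq, hmk⟩ := hsurjM g hg
      exact ⟨⟨q, hQP hq⟩, by rw [hfapp, hmk]⟩
    · have hp₀inv : p₀⁻¹ ∉ M := fun h => hp₀M (by simpa using M.inv_mem h)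
      have hgp : g * p₀⁻¹ ∈ M :=
        (Subgroup.mul_mem_iff_of_index_two hMidx).mpr
          ⟨fun h => absurd h hg, fun h => absurd h hp₀inv⟩
      obtain ⟨q, hq, hmk⟩ := hsurjM _ hgp
      refine ⟨⟨q * p₀, P.mul_mem (hQP hq) hp₀P⟩, ?_⟩
      rw [hfapp]
      have h2 : QuotientGroup.mk' (Cfsg.pPrimeCore 2 L) g =
          QuotientGroup.mk' (Cfsg.pPrimeCore 2 L) (g * p₀⁻¹) *
            QuotientGroup.mk' (Cfsg.pPrimeCore 2 L) p₀ := by
        rw [← map_mul]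
        congr 1
        group
      rw [h2, hmk, ← map_mul]
  obtain ⟨e⟩ : Nonempty (↥P ≃* L ⧸ Cfsg.pPrimeCore 2 L) :=
    ⟨MulEquiv.ofBijective f ⟨hinj, hsurj⟩⟩
  have hPnt : ∃ p : ↥P, p ≠ 1 := by
    have h1 : Nontrivial ↥P := by
      rw [← Finite.one_lt_card_iff_nontrivial, hP4]
      norm_num
    exact exists_ne 1
  have hK : IsKleinFour ↥P :=
    { card_four := hP4
      exponent_two := exponent_two_of (fun p => Subtype.ext (hPexp p p.2)) hPnt }
  obtain ⟨e'⟩ := IsKleinFour.nonempty_mulEquiv (G₁ := ↥P)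
    (G₂ := Multiplicative (ZMod 2) × Multiplicative (ZMod 2))
  exact ⟨e.symm.trans e'⟩

end Cfsg.Agent.Lib.Helper62.DSims
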